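import Mathlib
import Cfsg.Agent.Lib.Helper35.JR.Defs

/-!
# Project JR (S3206): package [AUT]

An automorphism of 2-power order fixing a Sylow 2-subgroup pointwise is inner, from the abstract
data `S8`, `Fus`, `ZC`, `Loc`.
-/

set_option autoImplicit false

namespace Cfsg.Agent.Lib.Helper59.JR

open Cfsg.Agent.Lib.Helper35.JR

open scoped Pointwise

universe u

theorem memC {G : Type u} [Group G] (z x : G) :
    x ∈ Subgroup.centralizer ({z} : Set G) ↔ z * x = x * z := by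
  rw [Subgroup.mem_centralizer_iff]
  simp

theorem syl_mem {G : Type u} [Group G] (S : Sylow 2 G) (g y : G) :
    y ∈ ((g⁻¹ • S : Sylow 2 G) : Subgroup G) ↔ g * y * g⁻¹ ∈ (S : Subgroup G) := by
  rw [Sylow.coe_subgroup_smul, Subgroup.mem_pointwise_smul_iff_inv_smul_mem]
  simp [MulAut.smul_def]

theorem card_ne_one {P : Type u} [Group P] [Finite P] :
    Nat.card {y : P // y ≠ 1} = Nat.card P - 1 := by
  classical
  haveI : Fintype P := Fintype.ofFinite P
  rw [Nat.card_eq_fintype_card, Nat.card_eq_fintype_card, Fintype.card_subtype,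
    Finset.filter_ne' Finset.univ (1 : P), Finset.card_erase_of_mem (Finset.mem_univ _),
    Finset.card_univ]

theorem coatom_alt {G : Type u} [Group G] (t : G)
    (hmax : IsCoatom (Subgroup.centralizer ({t} : Set G))) (A : Subgroup G) (g : G)
    (hle : ∀ y ∈ Subgroup.centralizer ({t} : Set G), g * y * g⁻¹ ∈ A) :
    (∀ x, x ∈ A) ∨ (∀ y, g * y * g⁻¹ ∈ A → y ∈ Subgroup.centralizer ({t} : Set G)) := by
  by_cases h : ∀ y, g * y * g⁻¹ ∈ A → y ∈ Subgroup.centralizer ({t} : Set G)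
  · exact Or.inr h
  · left
    obtain ⟨B, hB⟩ : ∃ B : Subgroup G, ∀ y, y ∈ B ↔ g * y * g⁻¹ ∈ A :=
      ⟨A.comap (MulAut.conj g).toMonoidHom, fun y => by
        rw [Subgroup.mem_comap]
        rfl⟩
    have hlt : Subgroup.centralizer ({t} : Set G) < B := by
      refine lt_of_le_not_ge (fun y hy => (hB y).mpr (hle y hy)) ?_
      intro hBC
      exact h (fun y hy => hBC ((hB y).mpr hy))
    have hBtop := hmax.2 B hlt
    intro x
    have hx : g⁻¹ * x * g ∈ B := by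
      rw [hBtop]
      exact Subgroup.mem_top _
    have h1 := (hB _).mp hx
    have e : g * (g⁻¹ * x * g) * g⁻¹ = x := by group
    rwa [e] at h1

theorem pkgAut : PkgAut.{u} := by
  intro G _ _ t ht hmax hS8 hFus hZC hLoc φ k hφ hS
  classical
  obtain ⟨S, hSfix⟩ := hS
  obtain ⟨hScard, hSexp⟩ := hS8 S
  haveI : Fact (Nat.Prime 2) := ⟨Nat.prime_two⟩
  have ht1 : t ≠ 1 := by
    intro h
    rw [h, orderOf_one] at ht
    omega
  -- every involution of `S` is conjugate to `t`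
  have hA : ∀ s ∈ (S : Subgroup G), s ≠ 1 → ∃ g : G, s = g * t * g⁻¹ := by
    have hzp : IsPGroup 2 (Subgroup.zpowers t) := by
      apply IsPGroup.of_card (n := 1)
      rw [Nat.card_zpowers, ht, pow_one]
    obtain ⟨St, hSt⟩ := hzp.exists_le_sylow
    have htSt : t ∈ (St : Subgroup G) := hSt (Subgroup.mem_zpowers t)
    obtain ⟨h, hh⟩ := MulAction.exists_smul_eq G St S
    have ht'S : h * t * h⁻¹ ∈ (S : Subgroup G) := by
      have h1 : MulAut.conj h • t ∈ MulAut.conj h • (St : Subgroup G) :=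
        Subgroup.smul_mem_pointwise_smul _ _ _ htSt
      rw [← Sylow.coe_subgroup_smul, hh] at h1
      exact h1
    have ht'1 : h * t * h⁻¹ ≠ 1 := by
      intro e
      apply ht1
      have e2 : t = h⁻¹ * (h * t * h⁻¹) * h := by group
      rw [e2, e]
      group
    intro s hs hs1
    obtain ⟨n, -, hn⟩ := hFus S _ ht'S ht'1 s hs hs1
    refine ⟨n * h, ?_⟩
    rw [← hn]
    group
  -- on every `C(s)` the automorphism is a conjugation by an element of `S`
  have hB : ∀ s ∈ (S : Subgroup G), s ≠ 1 → ∃ w ∈ (S : Subgroup G),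
      ∀ x ∈ Subgroup.centralizer ({s} : Set G), φ x = w * x * w⁻¹ := by
    intro s hs hs1
    obtain ⟨g, hg⟩ := hA s hs hs1
    obtain ⟨ψ, hψdef⟩ : ∃ ψ : G ≃* G, ψ = MulAut.conj g⁻¹ * φ * (MulAut.conj g⁻¹)⁻¹ := ⟨_, rfl⟩
    have hψpow : ψ ^ (2 ^ k) = 1 := by
      rw [hψdef, conj_pow, hφ, mul_one, mul_inv_cancel]
    have hψ : ∀ x, ψ x = g⁻¹ * φ (g * x * g⁻¹) * g := by
      intro x
      rw [hψdef]
      simp [MulAut.mul_apply, MulAut.conj_apply]
    have htS' : t ∈ ((g⁻¹ • S : Sylow 2 G) : Subgroup G) := by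
      rw [syl_mem, ← hg]
      exact hs
    have hfix : ∀ x ∈ ((g⁻¹ • S : Sylow 2 G) : Subgroup G), ψ x = x := by
      intro x hx
      rw [syl_mem] at hx
      rw [hψ, hSfix _ hx]
      group
    obtain ⟨w', hw'S, hw'⟩ := hLoc ψ k hψpow (g⁻¹ • S) htS' hfix
    rw [syl_mem] at hw'S
    refine ⟨g * w' * g⁻¹, hw'S, ?_⟩
    intro x hx
    rw [memC, hg] at hx
    have hy : g⁻¹ * x * g ∈ Subgroup.centralizer ({t} : Set G) := by
      rw [memC]
      have e1 : t * (g⁻¹ * x * g) = g⁻¹ * (g * t * g⁻¹ * x) * g := by group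
      have e2 : g⁻¹ * x * g * t = g⁻¹ * (x * (g * t * g⁻¹)) * g := by group
      rw [e1, e2, hx]
    have h1 := hw' _ hy
    rw [hψ] at h1
    have e3 : g * (g⁻¹ * x * g) * g⁻¹ = x := by group
    rw [e3] at h1
    have e4 : φ x = g * (g⁻¹ * φ x * g) * g⁻¹ := by group
    rw [e4, h1]
    group
  have hB' : ∀ s : {s : (S : Subgroup G) // s ≠ 1}, ∃ w : (S : Subgroup G),
      ∀ x ∈ Subgroup.centralizer ({(s.1 : G)} : Set G), φ x = (w : G) * x * (w : G)⁻¹ := by
    intro s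
    obtain ⟨w, hw, hw'⟩ := hB s.1.1 s.1.2 (fun h => s.2 (Subtype.ext h))
    exact ⟨⟨w, hw⟩, hw'⟩
  choose W hW using hB'
  obtain ⟨f, hf⟩ : ∃ f : {s : (S : Subgroup G) // s ≠ 1} × Bool → (S : Subgroup G),
      ∀ p, f p = if p.2 = true then W p.1 * p.1.1 else W p.1 :=
    ⟨fun p => if p.2 = true then W p.1 * p.1.1 else W p.1, fun p => rfl⟩
  have hD : ∀ p, ∀ x ∈ Subgroup.centralizer ({(p.1.1 : G)} : Set G),
      φ x = (f p : G) * x * (f p : G)⁻¹ := by
    intro p x hx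
    rw [hf]
    split_ifs with hb
    · rw [hW p.1 x hx]
      rw [memC] at hx
      rw [Subgroup.coe_mul]
      have e : ((W p.1 : G) * (p.1.1 : G)) * x * ((W p.1 : G) * (p.1.1 : G))⁻¹
          = (W p.1 : G) * ((p.1.1 : G) * x) * (p.1.1 : G)⁻¹ * (W p.1 : G)⁻¹ := by group
      rw [e, hx]
      group
    · exact hW p.1 x hx
  haveI : Fintype (S : Subgroup G) := Fintype.ofFinite _
  haveI : Fintype ({s : (S : Subgroup G) // s ≠ 1} × Bool) := Fintype.ofFinite _
  have hcard : Fintype.card (S : Subgroup G)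
      < Fintype.card ({s : (S : Subgroup G) // s ≠ 1} × Bool) := by
    rw [← Nat.card_eq_fintype_card, ← Nat.card_eq_fintype_card, Nat.card_prod, card_ne_one,
      hScard, Nat.card_eq_fintype_card (α := Bool), Fintype.card_bool]
    norm_num
  obtain ⟨p, p', hne, hpp⟩ := Fintype.exists_ne_map_eq_of_card_lt f hcard
  have hss : p.1 ≠ p'.1 := by
    intro e
    apply hne
    rcases p with ⟨s, b⟩
    rcases p' with ⟨s', b'⟩
    simp only at e
    subst e
    rw [hf, hf] at hpp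
    cases b <;> cases b'
    · rfl
    · exfalso
      simp at hpp
      exact s.2 hpp
    · exfalso
      simp at hpp
      exact s.2 hpp
    · rfl
  obtain ⟨w, hw⟩ : ∃ w : G, w = (f p : G) := ⟨_, rfl⟩
  have hw' : w = (f p' : G) := by rw [hw, hpp]
  obtain ⟨A, hAm⟩ : ∃ A : Subgroup G, ∀ x, x ∈ A ↔ φ x = w * x * w⁻¹ :=
    ⟨{ carrier := {x | φ x = w * x * w⁻¹}
       one_mem' := by
         show φ 1 = w * 1 * w⁻¹
         rw [map_one]
         group
       mul_mem' := by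
         intro a b (ha : φ a = w * a * w⁻¹) (hb : φ b = w * b * w⁻¹)
         show φ (a * b) = w * (a * b) * w⁻¹
         rw [map_mul, ha, hb]
         group
       inv_mem' := by
         intro a (ha : φ a = w * a * w⁻¹)
         show φ a⁻¹ = w * a⁻¹ * w⁻¹
         rw [map_inv, ha]
         group }, fun x => Iff.rfl⟩
  have hCs : ∀ x ∈ Subgroup.centralizer ({(p.1.1 : G)} : Set G), x ∈ A :=
    fun x hx => (hAm x).mpr (by rw [hw]; exact hD p x hx)
  have hCs' : ∀ x ∈ Subgroup.centralizer ({(p'.1.1 : G)} : Set G), x ∈ A :=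
    fun x hx => (hAm x).mpr (by rw [hw']; exact hD p' x hx)
  obtain ⟨g, hg⟩ := hA p.1.1 p.1.1.2 (fun h => p.1.2 (Subtype.ext h))
  obtain ⟨g', hg'⟩ := hA p'.1.1 p'.1.1.2 (fun h => p'.1.2 (Subtype.ext h))
  have hle : ∀ y ∈ Subgroup.centralizer ({t} : Set G), g * y * g⁻¹ ∈ A := by
    intro y hy
    apply hCs
    rw [memC] at hy ⊢
    rw [hg]
    have e1 : g * t * g⁻¹ * (g * y * g⁻¹) = g * (t * y) * g⁻¹ := by group
    have e2 : g * y * g⁻¹ * (g * t * g⁻¹) = g * (y * t) * g⁻¹ := by group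
    rw [e1, e2, hy]
  have hle' : ∀ y ∈ Subgroup.centralizer ({t} : Set G), g' * y * g'⁻¹ ∈ A := by
    intro y hy
    apply hCs'
    rw [memC] at hy ⊢
    rw [hg']
    have e1 : g' * t * g'⁻¹ * (g' * y * g'⁻¹) = g' * (t * y) * g'⁻¹ := by group
    have e2 : g' * y * g'⁻¹ * (g' * t * g'⁻¹) = g' * (y * t) * g'⁻¹ := by group
    rw [e1, e2, hy]
  rcases coatom_alt t hmax A g hle with hall | hb
  · exact ⟨w, fun x => (hAm x).mp (hall x)⟩
  rcases coatom_alt t hmax A g' hle' with hall | hb'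
  · exact ⟨w, fun x => (hAm x).mp (hall x)⟩
  exfalso
  have hs'A : (p'.1.1 : G) ∈ A := hCs' _ (by rw [memC])
  have hu : g⁻¹ * (p'.1.1 : G) * g ∈ Subgroup.centralizer ({t} : Set G) := by
    apply hb
    have e : g * (g⁻¹ * (p'.1.1 : G) * g) * g⁻¹ = (p'.1.1 : G) := by group
    rw [e]
    exact hs'A
  have hucen : ∀ y ∈ Subgroup.centralizer ({t} : Set G),
      g⁻¹ * (p'.1.1 : G) * g * y = y * (g⁻¹ * (p'.1.1 : G) * g) := by
    intro y hy
    have h1 : g * y * g⁻¹ ∈ A := hle y hy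
    have h2 : g'⁻¹ * (g * y * g⁻¹) * g' ∈ Subgroup.centralizer ({t} : Set G) := by
      apply hb'
      have e : g' * (g'⁻¹ * (g * y * g⁻¹) * g') * g'⁻¹ = g * y * g⁻¹ := by group
      rw [e]
      exact h1
    rw [memC] at h2
    have h3 : (p'.1.1 : G) * (g * y * g⁻¹) = (g * y * g⁻¹) * (p'.1.1 : G) := by
      rw [hg']
      have e1 : g' * t * g'⁻¹ * (g * y * g⁻¹)
          = g' * (t * (g'⁻¹ * (g * y * g⁻¹) * g')) * g'⁻¹ := by group
      have e2 : g * y * g⁻¹ * (g' * t * g'⁻¹)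
          = g' * ((g'⁻¹ * (g * y * g⁻¹) * g') * t) * g'⁻¹ := by group
      rw [e1, e2, h2]
    have e3 : g⁻¹ * (p'.1.1 : G) * g * y = g⁻¹ * ((p'.1.1 : G) * (g * y * g⁻¹)) * g := by group
    have e4 : y * (g⁻¹ * (p'.1.1 : G) * g) = g⁻¹ * ((g * y * g⁻¹) * (p'.1.1 : G)) * g := by group
    rw [e3, e4, h3]
  have hz := hZC _ hu hucen
  rw [Subgroup.mem_zpowers_iff] at hz
  obtain ⟨m, hm⟩ := hz
  have hm2 : t ^ (m % 2) = t ^ m := by
    have h5 := zpow_mod_orderOf t m
    rw [ht] at h5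
    exact_mod_cast h5
  rcases Int.emod_two_eq_zero_or_one m with h0 | h1
  · rw [h0, zpow_zero] at hm2
    rw [← hm2] at hm
    apply p'.1.2
    apply Subtype.ext
    show (p'.1.1 : G) = 1
    have e : (p'.1.1 : G) = g * (g⁻¹ * (p'.1.1 : G) * g) * g⁻¹ := by group
    rw [e, ← hm]
    group
  · rw [h1, zpow_one] at hm2
    rw [← hm2] at hm
    apply hss
    apply Subtype.ext
    apply Subtype.ext
    show (p.1.1 : G) = (p'.1.1 : G)
    rw [hg]
    have e : (p'.1.1 : G) = g * (g⁻¹ * (p'.1.1 : G) * g) * g⁻¹ := by group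
    rw [e, ← hm]

end Cfsg.Agent.Lib.Helper59.JR
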